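import Cfsg.Agent.Lib.PP.Solv131
import Cfsg.Agent.Lib.FusionControl
import Cfsg.Agent.Lib.FrobTwo
import Cfsg.Agent.Lib.CoreSolvable
import Cfsg.Agent.S3777
import Cfsg.Prelude.Def_SolvableStructure

/-! Solvable groups in which all elements of prime power order have square-free class size. -/

set_option autoImplicit false

namespace CfsgLib.SFSolv

open Subgroup Cfsg CfsgLib
open scoped commutatorElement

universe u

/-- All elements of prime power order have square-free class size. -/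
def SqF (G : Type*) [Group G] : Prop :=
  ∀ x : G, (∃ r k : ℕ, r.Prime ∧ orderOf x = r ^ k) → Squarefree (centralizer ({x} : Set G)).index

variable {G : Type*} [Group G] [Finite G]

theorem SqF.quot (h : SqF G) (N : Subgroup G) [N.Normal] : SqF (G ⧸ N) := by
  rintro x ⟨r, k, hr, hx⟩
  obtain ⟨x, rfl⟩ := QuotientGroup.mk_surjective x
  obtain ⟨u, h1, j, h2⟩ := PP131.exists_lift_pow (QuotientGroup.mk' N) hr x hx
  have h3 : (u : G ⧸ N) = x := h1
  exact (h u ⟨r, j, hr, h2⟩).squarefree_of_dvd (h3 ▸ Frob.index_centralizer_mk_dvd N u)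

theorem SqF.normal (h : SqF G) (N : Subgroup G) [N.Normal] : SqF N := by
  rintro x ⟨r, k, hr, hx⟩
  exact (h x ⟨r, k, hr, by rwa [orderOf_coe]⟩).squarefree_of_dvd
    (Frob.index_centralizer_normal_dvd N x)

theorem dvd_of_sqfree {n q k : ℕ} (hq : q.Prime) (h : Squarefree n) (hd : n ∣ q ^ k) : n ∣ q := by
  obtain ⟨j, -, rfl⟩ := (Nat.dvd_prime_pow hq).1 hd
  have : j ≤ 1 := by
    by_contra h1
    exact hq.ne_one (Nat.isUnit_iff.mp (h q (by rw [← pow_two]; exact pow_dvd_pow q (by omega))))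
  simpa using pow_dvd_pow q this

omit [Finite G] in
theorem eq_or_eq_of_prime {B K A : Subgroup G} (h1 : B ≤ K) (h2 : K ≤ A)
    (hq : (B.relIndex A).Prime) : K = B ∨ K = A := by
  rw [← relIndex_mul_relIndex B K A h1 h2] at hq
  rcases Nat.prime_mul_iff.1 hq with h | h
  · exact Or.inr (le_antisymm h2 (relIndex_eq_one.1 h.2))
  · exact Or.inl (le_antisymm (relIndex_eq_one.1 h.2) h1)

/-- Minimal normal subgroups are cyclic. -/
theorem SqF.exists_zpowers (h : SqF G) (hs : Group.IsSolvable G) {V : Subgroup G}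
    (hV : IsMinNormal V) : ∃ v : G, V = zpowers v ∧ ∃ r k : ℕ, r.Prime ∧ orderOf v = r ^ k := by
  have hn := hV.1
  obtain ⟨r, hr, hel⟩ := hV.exists_isElementaryAbelian inferInstance
  have := Fact.mk hr
  have hrV := isPGroup_of_isElementaryAbelian hel
  have hpp : ∀ v ∈ V, ∃ r k : ℕ, r.Prime ∧ orderOf v = r ^ k := fun v hv =>
    let ⟨k, hk⟩ := orderOf_eq_pow_of_mem_isPGroup hrV hv
    ⟨r, k, hr, hk⟩
  have hc : ∀ a ∈ V, ∀ b ∈ V, a * b = b * a := PGrp.isMulCommutative_iff_forall.mp hel.1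
  obtain ⟨v₀, hv₀, hv₀1⟩ : ∃ v ∈ V, v ≠ 1 := by
    by_contra h1
    push Not at h1
    exact hV.2.1 (eq_bot_iff.2 h1)
  refine ⟨v₀, ?_, hpp v₀ hv₀⟩
  set C := centralizer (V : Set G) with hC
  by_cases hC1 : C = ⊤
  · have : (zpowers v₀).Normal := ⟨fun x hx g => by
      rw [← (hC1.ge (mem_top g) : g ∈ C) x (zpowers_le.2 hv₀ hx), mul_inv_cancel_right]
      exact hx⟩
    exact ((hV.2.2 _ this (zpowers_le.2 hv₀)).resolve_left (zpowers_ne_bot.2 hv₀1)).symm
  have : Nontrivial (G ⧸ C) := QuotientGroup.nontrivial_iff.2 hC1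
  obtain ⟨B, hB⟩ := exists_isMinNormal (G := G ⧸ C)
  obtain ⟨q, hq, hBel⟩ := hB.exists_isElementaryAbelian inferInstance
  have := Fact.mk hq
  have := hB.1
  set A := B.comap (QuotientGroup.mk' C) with hA
  have hCA : C ≤ A := QuotientGroup.le_comap_mk' C B
  have hAC : ¬ A ≤ C := fun h1 => hB.2.1 (eq_bot_iff.2 fun b hb => by
    obtain ⟨a, rfl⟩ := QuotientGroup.mk_surjective b
    exact (QuotientGroup.eq_one_iff a).2 (h1 hb))
  have hAA : ∀ a ∈ A, ∀ b ∈ A, ⁅a, b⁆ ∈ C := fun a ha b hb => by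
    rw [← QuotientGroup.eq_one_iff]
    change QuotientGroup.mk' C ⁅a, b⁆ = 1
    rw [map_commutatorElement, commutatorElement_eq_one_iff_mul_comm]
    exact PGrp.isMulCommutative_iff_forall.mp hBel.1 _ ha _ hb
  obtain ⟨k, hk⟩ := IsPGroup.iff_card.1 (isPGroup_of_isElementaryAbelian hBel)
  have hidx : C.relIndex A = q ^ k := by
    have e := relIndex_ker A (QuotientGroup.mk' C)
    rw [QuotientGroup.ker_mk', hA,
      map_comap_eq_self_of_surjective (QuotientGroup.mk'_surjective C)] at e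
    exact e.trans hk
  have hfix : ∀ u ∈ V, A ≤ centralizer {u} → u = 1 := fun u hu h1 => by
    rcases hV.inf_eq_bot_or_le (centralizer (A : Set G)) with h2 | h2
    · exact mem_bot.1 (h2.le ⟨hu, fun a ha => mem_centralizer_singleton_iff.1 (h1 ha)⟩)
    · exact absurd (le_centralizer_iff.1 h2) hAC
  have hCv : ∀ v ∈ V, C ≤ A ⊓ centralizer {v} := fun v hv =>
    le_inf hCA (centralizer_le (Set.singleton_subset_iff.2 hv))
  have hpr : ∀ v ∈ V, v ≠ 1 → (A ⊓ centralizer {v}).relIndex A = q := fun v hv v1 => by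
    have h1 : (A ⊓ centralizer {v}).relIndex A ∣ q := by
      refine dvd_of_sqfree (k := k) hq ?_ (hidx ▸ relIndex_dvd_of_le_left A (hCv v hv))
      rw [inf_relIndex_left]
      exact (h v (hpp v hv)).squarefree_of_dvd (Frob.relIndex_normal_dvd_index _ A)
    exact ((Nat.dvd_prime hq).1 h1).resolve_left fun h2 =>
      v1 (hfix v hv ((relIndex_eq_one.1 h2).trans inf_le_right))
  have hcm : ∀ v ∈ V, ∀ a ∈ A, A ⊓ centralizer {v} ≤ centralizer {v⁻¹ * (a * v * a⁻¹)} := by
    intro v hv a ha b hb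
    have h1 : b * v = v * b := mem_centralizer_singleton_iff.1 hb.2
    have h2 := hAA _ (inv_mem ha) _ hb.1 v hv
    rw [mem_centralizer_singleton_iff]
    have h3 : a⁻¹ * b * a * v = v * (a⁻¹ * b * a) := by
      calc _ = ⁅a⁻¹, b⁆ * (b * v) := by rw [commutatorElement_def]; group
        _ = _ := by rw [h1, ← mul_assoc, ← h2, commutatorElement_def]; group
    calc _ = b * v⁻¹ * a * v * a⁻¹ := by group
      _ = v⁻¹ * (v * b) * v⁻¹ * a * v * a⁻¹ := by group
      _ = v⁻¹ * a * (a⁻¹ * b * a * v) * a⁻¹ := by rw [← h1]; group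
      _ = _ := by rw [h3]; group
  have heq : ∀ v ∈ V, v ≠ 1 → ∀ w ∈ V, w ≠ 1 →
      A ⊓ centralizer {v} ≤ A ⊓ centralizer {w} := by
    intro v hv v1 w hw w1
    by_contra hne
    have h1 : A ⊓ centralizer {v} ⊔ A ⊓ centralizer {w} = A :=
      (eq_or_eq_of_prime le_sup_right (sup_le inf_le_left inf_le_left)
        ((hpr w hw w1).symm ▸ hq)).resolve_left fun h1 => hne (le_sup_left.trans h1.le)
    have vw1 : v * w ≠ 1 := fun e => hne fun a ha => ⟨ha.1, by
      rw [eq_inv_of_mul_eq_one_right e]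
      exact mem_centralizer_singleton_iff.2
        (Commute.inv_right (mem_centralizer_singleton_iff.1 ha.2 : Commute a v)).eq⟩
    have h2 : A ⊓ centralizer {v * w} ≤ A ⊓ centralizer {v} ⊓ centralizer {w} := by
      intro a ha
      have h3 : a * (v * w) = v * w * a := mem_centralizer_singleton_iff.1 ha.2
      have h4 : v⁻¹ * (a * v * a⁻¹) = (w⁻¹ * (a * w * a⁻¹))⁻¹ := by
        rw [hc _ (inv_mem hw) _ (hn.conj_mem w hw a)]
        calc _ = v⁻¹ * (a * (v * w)) * w⁻¹ * a⁻¹ := by group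
          _ = _ := by rw [h3]; group
      have h5 := hfix _ (mul_mem (inv_mem hv) (hn.conj_mem v hv a)) (h1.ge.trans (sup_le
        (hcm v hv a ha.1) fun b hb => by
          rw [h4]
          exact mem_centralizer_singleton_iff.2 (Commute.inv_right
            (mem_centralizer_singleton_iff.1 (hcm w hw a ha.1 hb) : Commute b _)).eq))
      have h6 : a * v = v * a := by
        calc _ = v * (v⁻¹ * (a * v * a⁻¹)) * a := by group
          _ = _ := by rw [h5, mul_one]
      refine ⟨⟨ha.1, mem_centralizer_singleton_iff.2 h6⟩, mem_centralizer_singleton_iff.2 ?_⟩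
      rw [← mul_assoc, h6, mul_assoc, mul_assoc] at h3
      exact mul_left_cancel h3
    rcases eq_or_eq_of_prime (h2.trans inf_le_left) inf_le_left
      ((hpr _ (mul_mem hv hw) vw1).symm ▸ hq) with h3 | h3
    · exact hne (le_inf inf_le_left (h3.le.trans (h2.trans inf_le_right)))
    · exact v1 (hfix v hv (h3.ge.trans inf_le_right))
  obtain ⟨z, hz, p, j, hp, hj, hzC⟩ : ∃ z ∈ A, ∃ p j : ℕ, p.Prime ∧ orderOf z = p ^ j ∧ z ∉ C := by
    by_contra h1
    push Not at h1
    exact hAC (le_of_forall_primePow_mem h1)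
  have h1 : V ⊓ centralizer {z} = ⊥ := eq_bot_iff.2 fun v hv => by
    by_contra v1
    refine hzC fun w hw => ?_
    by_cases w1 : w = 1
    · simp [w1]
    exact (mem_centralizer_singleton_iff.1 (heq v hv.1 v1 w hw w1
      ⟨hz, mem_centralizer_singleton_iff.2 (mem_centralizer_singleton_iff.1 hv.2).symm⟩).2).symm
  have h2 := (h z ⟨p, j, hp, hj⟩).squarefree_of_dvd (Frob.relIndex_normal_dvd_index _ V)
  rw [← inf_relIndex_left, h1, relIndex_bot_left] at h2
  obtain ⟨i, hi⟩ := IsPGroup.iff_card.1 hrV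
  have h3 := dvd_of_sqfree hr h2 hi.dvd
  refine (eq_of_le_of_card_le (zpowers_le.2 hv₀) ((Nat.le_of_dvd hr.pos h3).trans ?_)).symm
  rw [Nat.card_zpowers, orderOf_eq_prime (hel.2 v₀ hv₀) hv₀1]

omit [Finite G] in
theorem supersolvable_of_quot {v : G} [(zpowers v).Normal] (h : IsSupersolvable (G ⧸ zpowers v)) :
    IsSupersolvable G := by
  obtain ⟨n, H, h0, hl, hN, hs⟩ := h
  have sj := QuotientGroup.mk'_surjective (zpowers v)
  refine ⟨n + 1, Fin.cons ⊥ fun i => (H i).comap (QuotientGroup.mk' _), rfl, ?_, fun i => ?_,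
    fun i => ?_⟩
  · rw [← Fin.succ_last, Fin.cons_succ, hl, comap_top]
  · refine Fin.cases ?_ (fun i => ?_) i
    · exact normal_bot
    · exact (hN i).comap _
  · refine Fin.cases ⟨v, ?_⟩ (fun i => ?_) i
    · rw [Fin.cons_succ, h0, Fin.castSucc_zero, Fin.cons_zero, bot_sup_eq, MonoidHom.comap_bot,
        QuotientGroup.ker_mk']
    · obtain ⟨g, hg⟩ := hs i
      obtain ⟨g, rfl⟩ := sj g
      refine ⟨g, ?_⟩
      rw [Fin.cons_succ, ← Fin.succ_castSucc, Fin.cons_succ, hg, ← comap_sup_eq _ _ _ sj,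
        ← MonoidHom.map_zpowers, comap_map_eq, sup_comm (zpowers g), ← sup_assoc,
        sup_eq_left.2 (ker_le_comap _ _)]

theorem SqF.main (m : ℕ) (G : Type u) [Group G] [Finite G] : SqF G → Group.IsSolvable G →
    (∀ n : ℕ, Squarefree n → n ∣ Nat.card G → n ∣ m) → IsSupersolvable G ∧
      ∃ W : Subgroup G, W.Normal ∧ Group.IsNilpotent W ∧ commutator G ≤ W ∧ ∀ g, g ^ m ∈ W := by
  revert G
  refine card_induction fun G _ _ ih h hs hm => ?_
  rcases subsingleton_or_nontrivial G with h1 | h1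
  · exact ⟨⟨0, fun _ => ⊥, rfl, Subsingleton.elim _ _, fun _ => normal_bot, fun i => i.elim0⟩,
      ⊤, inferInstance, inferInstance, le_top, fun _ => mem_top _⟩
  obtain ⟨V, hV⟩ := exists_isMinNormal (G := G)
  obtain ⟨v, rfl, hv⟩ := h.exists_zpowers hs hV
  have := hV.1
  obtain ⟨h2, W, h3, h4, h5, h6⟩ := ih _ (card_quotient_lt hV.2.1) (h.quot _) inferInstance
    fun n hn hd => hm n hn (hd.trans (card_quotient_dvd_card _))
  refine ⟨supersolvable_of_quot h2, W.comap (QuotientGroup.mk' _) ⊓ centralizer (zpowers v),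
    inferInstance, ?_, le_inf ?_ ?_, fun g => ⟨?_, ?_⟩⟩
  · refine Subgroup.isNilpotent_of_ker_le_center (H := W)
      (((QuotientGroup.mk' _).subgroupComap W).comp (inclusion inf_le_left)) fun x hx => ?_
    have h7 : (x : G) ∈ zpowers v := (QuotientGroup.eq_one_iff _).1 (congrArg Subtype.val hx)
    exact mem_center_iff.2 fun y => Subtype.ext (y.2.2 x h7).symm
  · rw [← map_le_iff_le_comap, commutator_def, map_commutator]
    exact (commutator_mono le_top le_top).trans h5
  · rw [commutator_def, commutator_le]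
    exact fun a _ b _ d hd => (Frob.commutator_commute_of_isCyclic _ a b hd).symm
  · exact h6 (g : G ⧸ zpowers v)
  · have h7 := h v hv
    rw [← H1.centralizer_zpowers_eq] at h7
    obtain ⟨c, rfl⟩ := hm _ h7 (index_dvd_card _)
    rw [pow_mul]
    exact pow_mem (pow_index_mem _ g) c

theorem SqF.commutator_sqfree (h : SqF G) [hn : Group.IsNilpotent G] :
    Squarefree (Nat.card (commutator G)) := by
  refine Nat.squarefree_iff_prime_squarefree.2 fun p hp hd => ?_
  have := Fact.mk hp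
  obtain ⟨P⟩ : Nonempty (Sylow p G) := inferInstance
  have hP : (P : Subgroup G).Normal := inferInstance
  have h1 : commutator G ⊓ (P : Subgroup G) ≤ (commutator P).map (P : Subgroup G).subtype := by
    refine Fusion.commutator_inf_sylow_le P fun x hx g _ => ?_
    obtain ⟨a, -, b, -, rfl, -, ⟨k, hk⟩, hb⟩ := exists_p_part hp g
    obtain ⟨j, hj⟩ := orderOf_eq_pow_of_mem_isPGroup P.isPGroup' hx
    have h2 : Commute b x := commute_of_coprime_of_isNilpotent (hj ▸ hb.pow_right j)
    obtain ⟨Q, hQ⟩ := exists_sylow_mem_of_orderOf hk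
    have := Sylow.unique_of_normal P hP
    have ha : a ∈ (P : Subgroup G) := Subsingleton.elim Q P ▸ hQ
    refine ⟨⁅⟨a, ha⟩, ⟨x, hx⟩⁆, commutator_mem_commutator (mem_top _) (mem_top _), ?_⟩
    change a * x * a⁻¹ * x⁻¹ = _
    rw [mul_assoc a b, h2.eq]; group
  have h2 := Cfsg.Agent.S3777.result P.isPGroup' 1 fun x => by
    obtain ⟨k, hk⟩ := P.isPGroup'.index (centralizer {x})
    obtain ⟨j, hj⟩ := IsPGroup.iff_orderOf.1 P.isPGroup' x
    exact Nat.le_of_dvd (pow_pos hp.pos 1) (by
      simpa using dvd_of_sqfree hp (h.normal P x ⟨p, j, hp, hj⟩) hk.dvd)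
  obtain ⟨Q, hQ⟩ := Sylow.exists_subgroup_card_pow_prime (G := commutator G) p (n := 2)
    (by rwa [pow_two])
  have h3 : Q.map (commutator G).subtype ≤ commutator G ⊓ (P : Subgroup G) := by
    refine le_inf (map_subtype_le _) ?_
    obtain ⟨R, hR⟩ := ((IsPGroup.of_card hQ).map (commutator G).subtype).exists_le_sylow
    have := Sylow.unique_of_normal P hP
    exact Subsingleton.elim R P ▸ hR
  have h4 := card_le_of_le (h3.trans h1)
  rw [card_map_subtype, card_map_subtype, hQ] at h4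
  have := (Nat.pow_le_pow_iff_right hp.one_lt).1 (h4.trans h2)
  omega

/-- The conclusion of S4132 for solvable groups. -/
theorem SqF.conclusion (h : SqF G) (hs : Group.IsSolvable G) :
    IsSupersolvable G ∧ derivedSeries G 3 = ⊥ ∧
    (∀ _h : (fittingSubgroup G).Normal, IsMulCommutative (G ⧸ fittingSubgroup G) ∧
      Squarefree (Monoid.exponent (G ⧸ fittingSubgroup G))) ∧
    Squarefree (Nat.card (commutator ↥(fittingSubgroup G))) := by
  obtain ⟨h1, W, h2, h3, h4, h5⟩ := SqF.main (UniqueFactorizationMonoid.radical (Nat.card G)) G h hs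
    fun n hn hd => (UniqueFactorizationMonoid.dvd_radical_iff hn.isRadical Nat.card_pos.ne').2 hd
  have h6 : W ≤ fittingSubgroup G := le_fitting h3
  have := fittingSubgroup_normal (G := G)
  have := fitting_isNilpotent (G := G)
  have h7 := (h.normal (fittingSubgroup G)).commutator_sqfree
  refine ⟨h1, ?_, fun _ => ⟨Normal.quotient_commutative_iff_commutator_le.2 (h4.trans h6), ?_⟩, h7⟩
  · have := IsZGroup.of_squarefree h7
    have h8 : IsCyclic (commutator (fittingSubgroup G)) := inferInstance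
    have h9 : derivedSeries G 2 ≤ (commutator (fittingSubgroup G)).map (fittingSubgroup G).subtype := by
      rw [map_subtype_commutator, derivedSeries_succ, derivedSeries_one]
      exact commutator_mono (h4.trans h6) (h4.trans h6)
    rw [derivedSeries_succ, eq_bot_iff]
    refine (commutator_mono h9 h9).trans (commutator_le.2 ?_)
    rintro _ ⟨a, ha, rfl⟩ _ ⟨b, hb, rfl⟩
    rw [mem_bot, ← map_commutatorElement, commutatorElement_eq_one_iff_mul_comm.2, map_one]
    exact congrArg Subtype.val (mul_comm' (⟨a, ha⟩ : commutator (fittingSubgroup G)) ⟨b, hb⟩)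
  · refine (UniqueFactorizationMonoid.squarefree_radical (a := Nat.card G)).squarefree_of_dvd
      (Monoid.exponent_dvd_of_forall_pow_eq_one fun g => ?_)
    obtain ⟨g, rfl⟩ := QuotientGroup.mk_surjective g
    exact (QuotientGroup.eq_one_iff (g ^ _)).2 (h6 (h5 g))

/-- S4132, given that no nonabelian simple group satisfies `SQ 2`. -/
theorem SqF.conclusion' {G : Type u} [Group G] [Finite G]
    (hs : ∀ (X : Type u) [Group X] [Finite X] [IsSimpleGroup X], ¬ IsMulCommutative X →
      ¬ PP131.SQ 2 X) (h : SqF G) :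
    IsSupersolvable G ∧ derivedSeries G 3 = ⊥ ∧
    (∀ _h : (fittingSubgroup G).Normal, IsMulCommutative (G ⧸ fittingSubgroup G) ∧
      Squarefree (Monoid.exponent (G ⧸ fittingSubgroup G))) ∧
    Squarefree (Nat.card (commutator ↥(fittingSubgroup G))) := by
  have := Fact.mk Nat.prime_two
  refine h.conclusion (PP131.main131 (p := 2) hs G (fun r hr _ => hr.two_le) ?_).2
  rintro x ⟨r, k, hr, -, hx⟩ hd
  exact absurd (Nat.isUnit_iff.mp (h x ⟨r, k, hr, hx⟩ 2 (by rwa [← pow_two]))) (by decide)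

end CfsgLib.SFSolv
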